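import Mathlib
import Cfsg.Agent.Lib.Involutions.Dihedral

/-!
# Splitting of central double covers over dihedral subgroups of odd index (transfer argument)
-/

set_option autoImplicit false

namespace Cfsg.Agent.Lib.DoubleCover.Complement

open Cfsg.Agent.Lib.Involutions.Dihedral

variable {H A : Type*} [Group H] [Finite H] [Group A]

/-- A central element of order at most 2 mapped to nontrivial under `ϕ` gives a complement, when
`ϕ` goes from an odd index subgroup to a group of order 2. -/
theorem exists_complement_of_index_two {K L : Subgroup H} (z : H) (hz : z ∈ Subgroup.center H)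
    (hzz : z * z = 1) (hodd : Odd K.index) (hZ : Nat.card (Subgroup.center H) = 2)
    (hzK : z ∈ K) (hzL : z ∉ L) (hidx : (L.subgroupOf K).index = 2) :
    ∃ C : Subgroup H, (Subgroup.center H).IsComplement' C := by
  classical
  set L' := L.subgroupOf K with hL'
  have hn : L'.Normal := Subgroup.normal_of_index_eq_two hidx
  have hcard : Nat.card (K ⧸ L') = 2 := hidx
  have : Fact (Nat.Prime 2) := ⟨Nat.prime_two⟩
  have hcyc : IsCyclic (K ⧸ L') := isCyclic_of_prime_card (p := 2) hcard
  let _ : CommGroup (K ⧸ L') := IsCyclic.commGroup
  let ϕ : K →* K ⧸ L' := QuotientGroup.mk' L'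
  have hfi : K.FiniteIndex := inferInstance
  let τ : H →* K ⧸ L' := ϕ.transfer
  have hcentral : ∀ g : H, ∀ k : ℕ, g⁻¹ * z ^ k * g = z ^ k := by
    intro g k
    have : z ^ k ∈ Subgroup.center H := pow_mem hz k
    have hc := (Subgroup.mem_center_iff.mp this) g
    rw [mul_assoc, ← hc]
    group
  have hzK' : z ^ K.index = z := by
    obtain ⟨m, hm⟩ := hodd
    rw [hm, pow_succ, pow_mul, pow_two, hzz, one_pow, one_mul]
  have hτz : τ z ≠ 1 := by
    have h1 : τ z = ϕ ⟨z ^ K.index, MonoidHom.transfer_eq_pow_aux (H := K) z
        (fun k g₀ _ => hcentral g₀ k)⟩ :=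
      MonoidHom.transfer_eq_pow ϕ z (fun k g₀ _ => hcentral g₀ k)
    rw [h1]
    intro h2
    have h3 : (⟨z ^ K.index, MonoidHom.transfer_eq_pow_aux (H := K) z
        (fun k g₀ _ => hcentral g₀ k)⟩ : K) ∈ L' := (QuotientGroup.eq_one_iff _).mp h2
    have h4 : z ^ K.index ∈ L := h3
    rw [hzK'] at h4
    exact hzL h4
  -- the kernel of the transfer
  refine ⟨τ.ker, ?_⟩
  apply Subgroup.isComplement'_of_card_mul_and_disjoint
  · -- counting
    have hrange : τ.range = ⊤ := by
      rw [eq_top_iff]
      intro x _
      -- the quotient has two elements: 1 and τ z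
      have hx : x = 1 ∨ x = τ z := by
        by_contra hcon
        push Not at hcon
        have h3 : 3 ≤ Nat.card (K ⧸ L') := by
          have hfin : Fintype (K ⧸ L') := Fintype.ofFinite _
          rw [Nat.card_eq_fintype_card]
          have : ({1, x, τ z} : Finset (K ⧸ L')).card = 3 := by
            rw [Finset.card_insert_of_notMem, Finset.card_insert_of_notMem, Finset.card_singleton]
            · simpa using hcon.2
            · simp only [Finset.mem_insert, Finset.mem_singleton, not_or]
              exact ⟨hcon.1.symm, hτz.symm⟩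
          rw [← this]
          exact Finset.card_le_univ _
        omega
      rcases hx with rfl | rfl
      · exact one_mem _
      · exact ⟨z, rfl⟩
    have hidx2 : τ.ker.index = 2 := by
      rw [Subgroup.index_ker]
      rw [hrange]
      simpa [Subgroup.card_top] using hcard
    have := Subgroup.card_mul_index τ.ker
    rw [hidx2] at this
    rw [hZ, mul_comm]
    exact this
  · -- disjointness
    rw [Subgroup.disjoint_def]
    intro x hx hxk
    -- the centre has at most two elements, 1 and z
    have hz1 : z ≠ 1 := by
      rintro rfl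
      exact hτz (map_one τ)
    by_contra hx1
    have hxz : x = z := by
      by_contra hne
      have hfin : Fintype (Subgroup.center H) := Fintype.ofFinite _
      have h3 : 3 ≤ Nat.card (Subgroup.center H) := by
        rw [Nat.card_eq_fintype_card]
        have : ({1, ⟨x, hx⟩, ⟨z, hz⟩} : Finset (Subgroup.center H)).card = 3 := by
          rw [Finset.card_insert_of_notMem, Finset.card_insert_of_notMem, Finset.card_singleton]
          · simpa using hne
          · simp only [Finset.mem_insert, Finset.mem_singleton, not_or]
            refine ⟨fun h => hx1 ?_, fun h => hz1 ?_⟩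
            · exact (congrArg Subtype.val h).symm
            · exact (congrArg Subtype.val h).symm
        rw [← this]
        exact Finset.card_le_univ _
      omega
    subst hxz
    exact hτz hxk

/-- The main splitting lemma: a central double cover `π : H → A` splits if `A` has a dihedral
subgroup `⟨u, v⟩` of odd index such that lifts of `u`, `v` and of the central involution of
`⟨u, v⟩` have square one. -/
theorem exists_complement (π : H →* A) (hsurj : Function.Surjective π)
    (hker : π.ker = Subgroup.center H) (hZ : Nat.card (Subgroup.center H) = 2)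
    (u v : A) (hu : orderOf u = 2) (hv : orderOf v = 2) (k : ℕ)
    (huv : orderOf (u * v) = 2 * k)
    (hodd : Odd (Subgroup.closure ({u, v} : Set A)).index)
    (hlift : ∀ ℓ : H, (π ℓ = u ∨ π ℓ = v ∨ π ℓ = (u * v) ^ k) → ℓ ^ 2 = 1) :
    ∃ C : Subgroup H, (Subgroup.center H).IsComplement' C := by
  classical
  -- the central involution
  obtain ⟨zc, hzc⟩ : ∃ zc : Subgroup.center H, zc ≠ 1 := by
    have : Nontrivial (Subgroup.center H) := by
      rw [← Finite.one_lt_card_iff_nontrivial, hZ]
      norm_num
    exact exists_ne 1
  set z : H := (zc : H) with hzdef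
  have hz : z ∈ Subgroup.center H := zc.2
  have hz1 : z ≠ 1 := by
    intro h
    exact hzc (Subtype.ext h)
  have hcenter2 : ∀ w ∈ Subgroup.center H, w = 1 ∨ w = z := by
    intro w hw
    by_contra hcon
    push Not at hcon
    have hfin : Fintype (Subgroup.center H) := Fintype.ofFinite _
    have h3 : 3 ≤ Nat.card (Subgroup.center H) := by
      rw [Nat.card_eq_fintype_card]
      have : ({1, ⟨w, hw⟩, zc} : Finset (Subgroup.center H)).card = 3 := by
        rw [Finset.card_insert_of_notMem, Finset.card_insert_of_notMem, Finset.card_singleton]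
        · intro h
          simp only [Finset.mem_singleton] at h
          exact hcon.2 (congrArg Subtype.val h)
        · simp only [Finset.mem_insert, Finset.mem_singleton, not_or]
          refine ⟨fun h => hcon.1 ?_, fun h => hz1 ?_⟩
          · exact (congrArg Subtype.val h).symm
          · exact (congrArg Subtype.val h).symm
      rw [← this]
      exact Finset.card_le_univ _
    omega
  have hzz : z * z = 1 := by
    have hm : z * z ∈ Subgroup.center H := mul_mem hz hz
    rcases hcenter2 _ hm with h | h
    · exact h
    · exact absurd (mul_left_cancel (a := z) (by rw [h, mul_one])) hz1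
  have hπz : π z = 1 := by
    have : z ∈ π.ker := by rw [hker]; exact hz
    exact this
  -- lifts
  obtain ⟨u', hu'⟩ := hsurj u
  obtain ⟨v', hv'⟩ := hsurj v
  have hu2 : u' ^ 2 = 1 := hlift u' (Or.inl hu')
  have hv2 : v' ^ 2 = 1 := hlift v' (Or.inr (Or.inl hv'))
  set c := u' * v' with hc
  have hπc : π c = u * v := by rw [hc, map_mul, hu', hv']
  have hck : (c ^ k) ^ 2 = 1 := hlift _ (Or.inr (Or.inr (by rw [map_pow, hπc])))
  have hc2k : c ^ (2 * k) = 1 := by
    rw [mul_comm, pow_mul]
    exact hck
  -- the subgroup `L`
  set L := Subgroup.closure ({u', v'} : Set H) with hL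
  have hzL : z ∉ L := by
    intro hmem
    rw [hL, mem_closure_iff hu2 hv2] at hmem
    rcases hmem with ⟨j, hj⟩ | ⟨j, hj⟩
    · have h1 : (u * v) ^ j = 1 := by
        have := congrArg π hj
        rw [hπz, map_zpow, hπc] at this
        exact this.symm
      have h2 : ((2 * k : ℕ) : ℤ) ∣ j := by
        rw [← huv]
        exact orderOf_dvd_iff_zpow_eq_one.mpr h1
      obtain ⟨m, hm⟩ := h2
      apply hz1
      rw [hj, hm, zpow_mul, zpow_natCast, hc2k, one_zpow]
    · have h1 : u * (u * v) ^ j = 1 := by
        have := congrArg π hj
        rw [hπz, map_mul, map_zpow, hπc, hu'] at this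
        exact this.symm
      apply not_mem_zpowers hu hv
      rw [Subgroup.mem_zpowers_iff]
      refine ⟨-j, ?_⟩
      rw [zpow_neg]
      exact (eq_inv_of_mul_eq_one_left h1).symm
  -- the subgroup `K`
  set K := (Subgroup.closure ({u, v} : Set A)).comap π with hK
  have hzK : z ∈ K := by
    rw [hK, Subgroup.mem_comap, hπz]
    exact one_mem _
  have hLK : L ≤ K := by
    rw [hL, Subgroup.closure_le]
    rintro x (rfl | rfl)
    · rw [hK, SetLike.mem_coe, Subgroup.mem_comap, hu']
      exact Subgroup.subset_closure (by simp)
    · rw [hK, SetLike.mem_coe, Subgroup.mem_comap, hv']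
      exact Subgroup.subset_closure (by simp)
  have hmapL : L.map π = Subgroup.closure ({u, v} : Set A) := by
    rw [hL, MonoidHom.map_closure]
    congr 1
    simp [Set.image_insert_eq, hu', hv']
  have hlift2 : ∀ x ∈ K, ∃ ℓ ∈ L, π ℓ = π x := by
    intro x hx
    have : π x ∈ L.map π := by rw [hmapL]; exact hx
    obtain ⟨ℓ, hℓ, h⟩ := this
    exact ⟨ℓ, hℓ, h⟩
  have hindex : K.index = (Subgroup.closure ({u, v} : Set A)).index :=
    Subgroup.index_comap_of_surjective _ hsurj
  have hidx : (L.subgroupOf K).index = 2 := by
    rw [Subgroup.index_eq_two_iff]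
    refine ⟨⟨z, hzK⟩, ?_⟩
    rintro ⟨b, hb⟩
    simp only [Subgroup.mem_subgroupOf, Subgroup.coe_mul]
    by_cases hbL : b ∈ L
    · right
      refine ⟨hbL, fun h => hzL ?_⟩
      have := mul_mem (inv_mem hbL) h
      simpa using this
    · left
      refine ⟨?_, hbL⟩
      obtain ⟨ℓ, hℓ, h⟩ := hlift2 b hb
      have hk : ℓ⁻¹ * b ∈ π.ker := by
        rw [MonoidHom.mem_ker, map_mul, map_inv, h, inv_mul_cancel]
      rw [hker] at hk
      rcases hcenter2 _ hk with h1 | h1
      · exfalso
        apply hbL
        have : b = ℓ := by
          have := mul_left_cancel (a := ℓ⁻¹) (b := b) (c := ℓ) (by rw [h1, inv_mul_cancel])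
          exact this
        rw [this]
        exact hℓ
      · have : b = ℓ * z := by
          rw [← h1]
          group
        rw [this, mul_assoc, hzz, mul_one]
        exact hℓ
  exact exists_complement_of_index_two z hz hzz (hindex ▸ hodd) hZ hzK hzL hidx

end Cfsg.Agent.Lib.DoubleCover.Complement
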