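import Mathlib
import Cfsg.Prelude.Def_SporadicB
import Cfsg.Agent.Lib.Involutions.Dihedral
import Cfsg.Agent.Lib.DoubleCover.Complement

/-!
# Non-split double covers of `A_n`, `n ≤ 7`, have a unique involution
-/

set_option autoImplicit false

namespace Cfsg.Agent.Lib.DoubleCover.AltSmall

open Equiv Equiv.Perm
open Cfsg.Agent.Lib.Involutions.Dihedral
open Cfsg.Agent.Lib.DoubleCover.Complement

/-- An involution of `A_n` with `n ≤ 7` has cycle type `2²`. -/
theorem cycleType_of_involution {n : ℕ} (hn : n ≤ 7) {σ : Perm (Fin n)} (hs : sign σ = 1)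
    (h2 : σ ^ 2 = 1) (h1 : σ ≠ 1) : σ.cycleType = {2, 2} := by
  have hd : orderOf σ ∣ 2 := orderOf_dvd_of_pow_eq_one h2
  have h2' : ∀ m ∈ σ.cycleType, m = 2 := by
    intro m hm
    have hm2 : m ∣ 2 := (dvd_of_mem_cycleType hm).trans hd
    have hm3 := two_le_of_mem_cycleType hm
    have := Nat.le_of_dvd (by norm_num) hm2
    omega
  rw [← Multiset.eq_replicate_card] at h2'
  have h := sum_cycleType_le σ
  rw [h2', Multiset.sum_replicate, smul_eq_mul, Fintype.card_fin] at h
  have h3 : Multiset.card σ.cycleType ≤ 3 := by omega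
  rw [sign_of_cycleType, h2', Multiset.sum_replicate, Multiset.card_replicate,
    smul_eq_mul, pow_add, pow_mul, Int.units_pow_two, one_mul, neg_one_pow_eq_one_iff_even] at hs
  swap; · decide
  have h0 : Multiset.card σ.cycleType ≠ 0 := by
    rw [Ne, card_cycleType_eq_zero]
    exact h1
  have hc : Multiset.card σ.cycleType = 2 := by
    obtain ⟨m, hm⟩ := hs
    omega
  rw [h2', hc]
  rfl

/-- Two involutions of `A_n` with `n ≤ 7` are conjugate in `A_n`. -/
theorem isConj_of_involutions {n : ℕ} (hn : n ≤ 7) (σ ρ : alternatingGroup (Fin n))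
    (hσ2 : σ ^ 2 = 1) (hσ1 : σ ≠ 1) (hρ2 : ρ ^ 2 = 1) (hρ1 : ρ ≠ 1) : IsConj σ ρ := by
  have hsσ : sign (σ : Perm (Fin n)) = 1 := mem_alternatingGroup.mp σ.2
  have hsρ : sign (ρ : Perm (Fin n)) = 1 := mem_alternatingGroup.mp ρ.2
  have hσ2' : (σ : Perm (Fin n)) ^ 2 = 1 := by
    have := congrArg Subtype.val hσ2
    simpa using this
  have hρ2' : (ρ : Perm (Fin n)) ^ 2 = 1 := by
    have := congrArg Subtype.val hρ2
    simpa using this
  have hσ1' : (σ : Perm (Fin n)) ≠ 1 := fun h => hσ1 (Subtype.ext h)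
  have hρ1' : (ρ : Perm (Fin n)) ≠ 1 := fun h => hρ1 (Subtype.ext h)
  have hct := (cycleType_of_involution hn hsσ hσ2' hσ1').trans
    (cycleType_of_involution hn hsρ hρ2' hρ1').symm
  obtain ⟨g, hg⟩ := isConj_iff.mp (isConj_iff_cycleType_eq.mpr hct)
  -- a transposition commuting with `σ`
  obtain ⟨a, ha⟩ : ∃ a, (σ : Perm (Fin n)) a ≠ a := by
    by_contra hcon
    push Not at hcon
    exact hσ1' (Equiv.ext hcon)
  have hτcomm : swap a ((σ : Perm (Fin n)) a) * (σ : Perm (Fin n)) =
      (σ : Perm (Fin n)) * swap a ((σ : Perm (Fin n)) a) := by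
    have h3 := Equiv.swap_apply_apply (σ : Perm (Fin n)) a ((σ : Perm (Fin n)) a)
    have h4 : (σ : Perm (Fin n)) ((σ : Perm (Fin n)) a) = a := by
      have := congrArg (fun p : Perm (Fin n) => p a) hσ2'
      simpa [pow_two] using this
    rw [h4, swap_comm] at h3
    have h5 : (σ : Perm (Fin n)) * swap a ((σ : Perm (Fin n)) a) * (σ : Perm (Fin n))⁻¹ =
        swap a ((σ : Perm (Fin n)) a) := h3.symm
    calc swap a ((σ : Perm (Fin n)) a) * (σ : Perm (Fin n))
        = (σ : Perm (Fin n)) * swap a ((σ : Perm (Fin n)) a) * (σ : Perm (Fin n))⁻¹ * (σ : Perm (Fin n)) := by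
            rw [h5]
      _ = _ := by group
  rcases Int.units_eq_one_or (sign g) with hsg | hsg
  · rw [isConj_iff]
    refine ⟨⟨g, mem_alternatingGroup.mpr hsg⟩, Subtype.ext ?_⟩
    exact hg
  · rw [isConj_iff]
    refine ⟨⟨g * swap a ((σ : Perm (Fin n)) a), ?_⟩, Subtype.ext ?_⟩
    · rw [mem_alternatingGroup, map_mul, hsg, sign_swap ha.symm]
      rfl
    · change g * swap a ((σ : Perm (Fin n)) a) * (σ : Perm (Fin n)) *
        (g * swap a ((σ : Perm (Fin n)) a))⁻¹ = _
      rw [← hg]
      have h6 : swap a ((σ : Perm (Fin n)) a) * swap a ((σ : Perm (Fin n)) a) = 1 := swap_mul_self _ _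
      have h7 : (swap a ((σ : Perm (Fin n)) a))⁻¹ = swap a ((σ : Perm (Fin n)) a) :=
        inv_eq_of_mul_eq_one_left h6
      set τ := swap a ((σ : Perm (Fin n)) a) with hτ
      rw [mul_inv_rev, h7]
      calc g * τ * (σ : Perm (Fin n)) * (τ * g⁻¹)
          = g * (τ * (σ : Perm (Fin n))) * (τ * g⁻¹) := by group
        _ = g * ((σ : Perm (Fin n)) * τ) * (τ * g⁻¹) := by rw [hτcomm]
        _ = g * (σ : Perm (Fin n)) * (τ * τ) * g⁻¹ := by group
        _ = g * (σ : Perm (Fin n)) * g⁻¹ := by rw [h6, mul_one]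

/-- The covering map attached to a double cover. -/
noncomputable def coverHom {H K : Type*} [Group H] [Group K]
    (e : H ⧸ Subgroup.center H ≃* K) : H →* K :=
  e.toMonoidHom.comp (QuotientGroup.mk' (Subgroup.center H))

theorem coverHom_surjective {H K : Type*} [Group H] [Group K]
    (e : H ⧸ Subgroup.center H ≃* K) : Function.Surjective (coverHom e) := by
  intro y
  obtain ⟨q, rfl⟩ := e.surjective y
  obtain ⟨x, rfl⟩ := QuotientGroup.mk'_surjective _ q
  exact ⟨x, rfl⟩

theorem coverHom_ker {H K : Type*} [Group H] [Group K]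
    (e : H ⧸ Subgroup.center H ≃* K) : (coverHom e).ker = Subgroup.center H := by
  ext x
  rw [MonoidHom.mem_ker, coverHom]
  simp only [MonoidHom.coe_comp, Function.comp_apply, MulEquiv.coe_toMonoidHom]
  rw [EmbeddingLike.map_eq_one_iff]
  exact QuotientGroup.eq_one_iff x

/-- Lifts: if one nontrivial involution of `A_n` lifts to an element of square one, then all
do. -/
theorem lift_sq_one {n : ℕ} (hn : n ≤ 7) {H : Type*} [Group H]
    (π : H →* alternatingGroup (Fin n)) (hsurj : Function.Surjective π)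
    (hker : π.ker = Subgroup.center H)
    (hz2 : ∀ w ∈ Subgroup.center H, w ^ 2 = 1)
    (x : H) (hx : x ^ 2 = 1) (hx1 : π x ≠ 1)
    (ℓ : H) (hℓ2 : (π ℓ) ^ 2 = 1) (hℓ1 : π ℓ ≠ 1) : ℓ ^ 2 = 1 := by
  have hπx : (π x) ^ 2 = 1 := by rw [← map_pow, hx, map_one]
  obtain ⟨g, hg⟩ := isConj_iff.mp (isConj_of_involutions hn (π x) (π ℓ) hπx hx1 hℓ2 hℓ1)
  obtain ⟨g', rfl⟩ := hsurj g
  set y := g' * x * g'⁻¹ with hy
  have hπy : π y = π ℓ := by rw [hy, map_mul, map_mul, map_inv, hg]
  have hy2 : y ^ 2 = 1 := by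
    rw [hy, conj_pow, hx]
    group
  have hk : ℓ * y⁻¹ ∈ π.ker := by
    rw [MonoidHom.mem_ker, map_mul, map_inv, hπy, mul_inv_cancel]
  rw [hker] at hk
  have hw := hz2 _ hk
  have hcomm : ∀ a : H, (ℓ * y⁻¹) * a = a * (ℓ * y⁻¹) := fun a =>
    ((Subgroup.mem_center_iff.mp hk) a).symm
  have h1 : ℓ = (ℓ * y⁻¹) * y := by group
  have h2 : Commute (ℓ * y⁻¹) y := hcomm y
  rw [h1, h2.mul_pow, hw, hy2, one_mul]

/-- The key numerical package for one degree `n`. -/
theorem no_noncentral_involution {n : ℕ} (hn : n ≤ 7) {H : Type*} [Group H] [Finite H]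
    (π : H →* alternatingGroup (Fin n)) (hsurj : Function.Surjective π)
    (hker : π.ker = Subgroup.center H) (hZ : Nat.card (Subgroup.center H) = 2)
    (hns : ∀ L : Subgroup H, ¬ (Subgroup.center H).IsComplement' L)
    (u v : alternatingGroup (Fin n)) (k : ℕ)
    (hu : orderOf u = 2) (hv : orderOf v = 2) (huv : orderOf (u * v) = 2 * k)
    (hk1 : (u * v) ^ k ≠ 1)
    (hodd : Odd (Subgroup.closure ({u, v} : Set (alternatingGroup (Fin n)))).index)
    (x : H) (hx : x ^ 2 = 1) (hx1 : π x ≠ 1) : False := by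
  have hz2 : ∀ w ∈ Subgroup.center H, w ^ 2 = 1 := by
    intro w hw
    have := pow_card_eq_one' (x := (⟨w, hw⟩ : Subgroup.center H))
    rw [hZ] at this
    have h2 := congrArg Subtype.val this
    simpa using h2
  have hu1 : u ≠ 1 := by
    rintro rfl
    simp at hu
  have hv1 : v ≠ 1 := by
    rintro rfl
    simp at hv
  have hu2 : u ^ 2 = 1 := by rw [← hu]; exact pow_orderOf_eq_one u
  have hv2 : v ^ 2 = 1 := by rw [← hv]; exact pow_orderOf_eq_one v
  have hk2 : ((u * v) ^ k) ^ 2 = 1 := by
    rw [← pow_mul, mul_comm, ← huv]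
    exact pow_orderOf_eq_one _
  obtain ⟨C, hC⟩ := exists_complement π hsurj hker hZ u v hu hv k huv hodd (by
    rintro ℓ (h | h | h)
    · exact lift_sq_one hn π hsurj hker hz2 x hx hx1 ℓ (by rw [h]; exact hu2) (by rw [h]; exact hu1)
    · exact lift_sq_one hn π hsurj hker hz2 x hx hx1 ℓ (by rw [h]; exact hv2) (by rw [h]; exact hv1)
    · exact lift_sq_one hn π hsurj hker hz2 x hx hx1 ℓ (by rw [h]; exact hk2) (by rw [h]; exact hk1))
  exact hns C hC

/-- Index computation for the dihedral subgroup of a finite group. -/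
theorem index_closure {G : Type*} [Group G] [Finite G] {u v : G} (hu : orderOf u = 2)
    (hv : orderOf v = 2) : (Subgroup.closure ({u, v} : Set G)).index * (2 * orderOf (u * v)) =
      Nat.card G := by
  obtain ⟨e⟩ := nonempty_closure_equiv hu hv
  have h1 := Nat.card_congr e.toEquiv
  rw [DihedralGroup.nat_card] at h1
  rw [← h1]
  exact Subgroup.index_mul_card _

theorem alt_card_four : Nat.card (alternatingGroup (Fin 4)) = 12 := by
  rw [nat_card_alternatingGroup]; simp [Nat.factorial]
theorem alt_card_five : Nat.card (alternatingGroup (Fin 5)) = 60 := by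
  rw [nat_card_alternatingGroup]; simp [Nat.factorial]
theorem alt_card_six : Nat.card (alternatingGroup (Fin 6)) = 360 := by
  rw [nat_card_alternatingGroup]; simp [Nat.factorial]
theorem alt_card_seven : Nat.card (alternatingGroup (Fin 7)) = 2520 := by
  rw [nat_card_alternatingGroup]; simp [Nat.factorial]

/-- Order two for a double transposition in `A_n`. -/
theorem orderOf_eq_two_of_perm {n : ℕ} (u : alternatingGroup (Fin n))
    (h2 : (u : Perm (Fin n)) ^ 2 = 1) (h1 : (u : Perm (Fin n)) ≠ 1) : orderOf u = 2 := by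
  have : Fact (Nat.Prime 2) := ⟨Nat.prime_two⟩
  rw [← Subgroup.orderOf_coe]
  exact orderOf_eq_prime h2 h1

/-- Order four for an element of `A_n`. -/
theorem orderOf_eq_four_of_perm {n : ℕ} (u : alternatingGroup (Fin n))
    (h2 : (u : Perm (Fin n)) ^ 2 ≠ 1) (h1 : (u : Perm (Fin n)) ^ 4 = 1) : orderOf u = 2 * 2 := by
  have : Fact (Nat.Prime 2) := ⟨Nat.prime_two⟩
  rw [← Subgroup.orderOf_coe]
  exact orderOf_eq_prime_pow (p := 2) (n := 1) h2 h1

theorem part_four {H : Type*} [Group H] [Finite H]
    (π : H →* alternatingGroup (Fin 4)) (hsurj : Function.Surjective π)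
    (hker : π.ker = Subgroup.center H) (hZ : Nat.card (Subgroup.center H) = 2)
    (hns : ∀ L : Subgroup H, ¬ (Subgroup.center H).IsComplement' L)
    (x : H) (hx : x ^ 2 = 1) (hx1 : π x ≠ 1) : False := by
  let u : alternatingGroup (Fin 4) := ⟨swap 0 1 * swap 2 3, mul_mem_alternatingGroup_of_isSwap
    ⟨_, _, by decide, rfl⟩ ⟨_, _, by decide, rfl⟩⟩
  let v : alternatingGroup (Fin 4) := ⟨swap 0 2 * swap 1 3, mul_mem_alternatingGroup_of_isSwap
    ⟨_, _, by decide, rfl⟩ ⟨_, _, by decide, rfl⟩⟩
  have hu : orderOf u = 2 := orderOf_eq_two_of_perm u (by decide) (by decide)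
  have hv : orderOf v = 2 := orderOf_eq_two_of_perm v (by decide) (by decide)
  have huv : orderOf (u * v) = 2 * 1 := orderOf_eq_two_of_perm (u * v) (by decide) (by decide)
  have hidx := index_closure hu hv
  rw [alt_card_four, huv] at hidx
  have hodd : Odd (Subgroup.closure ({u, v} : Set (alternatingGroup (Fin 4)))).index := by
    have : (Subgroup.closure ({u, v} : Set (alternatingGroup (Fin 4)))).index = 3 := by omega
    rw [this]; decide
  have hk1 : (u * v) ^ 1 ≠ 1 := fun h => absurd (congrArg Subtype.val h) (by decide)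
  exact no_noncentral_involution (by omega) π hsurj hker hZ hns u v 1 hu hv huv hk1
    hodd x hx hx1

theorem part_five {H : Type*} [Group H] [Finite H]
    (π : H →* alternatingGroup (Fin 5)) (hsurj : Function.Surjective π)
    (hker : π.ker = Subgroup.center H) (hZ : Nat.card (Subgroup.center H) = 2)
    (hns : ∀ L : Subgroup H, ¬ (Subgroup.center H).IsComplement' L)
    (x : H) (hx : x ^ 2 = 1) (hx1 : π x ≠ 1) : False := by
  let u : alternatingGroup (Fin 5) := ⟨swap 0 1 * swap 2 3, mul_mem_alternatingGroup_of_isSwap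
    ⟨_, _, by decide, rfl⟩ ⟨_, _, by decide, rfl⟩⟩
  let v : alternatingGroup (Fin 5) := ⟨swap 0 2 * swap 1 3, mul_mem_alternatingGroup_of_isSwap
    ⟨_, _, by decide, rfl⟩ ⟨_, _, by decide, rfl⟩⟩
  have hu : orderOf u = 2 := orderOf_eq_two_of_perm u (by decide) (by decide)
  have hv : orderOf v = 2 := orderOf_eq_two_of_perm v (by decide) (by decide)
  have huv : orderOf (u * v) = 2 * 1 := orderOf_eq_two_of_perm (u * v) (by decide) (by decide)
  have hidx := index_closure hu hv
  rw [alt_card_five, huv] at hidx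
  have hodd : Odd (Subgroup.closure ({u, v} : Set (alternatingGroup (Fin 5)))).index := by
    have : (Subgroup.closure ({u, v} : Set (alternatingGroup (Fin 5)))).index = 15 := by omega
    rw [this]; decide
  have hk1 : (u * v) ^ 1 ≠ 1 := fun h => absurd (congrArg Subtype.val h) (by decide)
  exact no_noncentral_involution (by omega) π hsurj hker hZ hns u v 1 hu hv huv hk1
    hodd x hx hx1

theorem part_six {H : Type*} [Group H] [Finite H]
    (π : H →* alternatingGroup (Fin 6)) (hsurj : Function.Surjective π)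
    (hker : π.ker = Subgroup.center H) (hZ : Nat.card (Subgroup.center H) = 2)
    (hns : ∀ L : Subgroup H, ¬ (Subgroup.center H).IsComplement' L)
    (x : H) (hx : x ^ 2 = 1) (hx1 : π x ≠ 1) : False := by
  let u : alternatingGroup (Fin 6) := ⟨swap 0 2 * swap 4 5, mul_mem_alternatingGroup_of_isSwap
    ⟨_, _, by decide, rfl⟩ ⟨_, _, by decide, rfl⟩⟩
  let v : alternatingGroup (Fin 6) := ⟨swap 0 1 * swap 2 3, mul_mem_alternatingGroup_of_isSwap
    ⟨_, _, by decide, rfl⟩ ⟨_, _, by decide, rfl⟩⟩
  have hu : orderOf u = 2 := orderOf_eq_two_of_perm u (by decide) (by decide)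
  have hv : orderOf v = 2 := orderOf_eq_two_of_perm v (by decide) (by decide)
  have huv : orderOf (u * v) = 2 * 2 := orderOf_eq_four_of_perm (u * v) (by decide) (by decide)
  have hidx := index_closure hu hv
  rw [alt_card_six, huv] at hidx
  have hodd : Odd (Subgroup.closure ({u, v} : Set (alternatingGroup (Fin 6)))).index := by
    have : (Subgroup.closure ({u, v} : Set (alternatingGroup (Fin 6)))).index = 45 := by omega
    rw [this]; decide
  have hk1 : (u * v) ^ 2 ≠ 1 := fun h => absurd (congrArg Subtype.val h) (by decide)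
  exact no_noncentral_involution (by omega) π hsurj hker hZ hns u v 2 hu hv huv hk1
    hodd x hx hx1

theorem part_seven {H : Type*} [Group H] [Finite H]
    (π : H →* alternatingGroup (Fin 7)) (hsurj : Function.Surjective π)
    (hker : π.ker = Subgroup.center H) (hZ : Nat.card (Subgroup.center H) = 2)
    (hns : ∀ L : Subgroup H, ¬ (Subgroup.center H).IsComplement' L)
    (x : H) (hx : x ^ 2 = 1) (hx1 : π x ≠ 1) : False := by
  let u : alternatingGroup (Fin 7) := ⟨swap 0 2 * swap 4 5, mul_mem_alternatingGroup_of_isSwap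
    ⟨_, _, by decide, rfl⟩ ⟨_, _, by decide, rfl⟩⟩
  let v : alternatingGroup (Fin 7) := ⟨swap 0 1 * swap 2 3, mul_mem_alternatingGroup_of_isSwap
    ⟨_, _, by decide, rfl⟩ ⟨_, _, by decide, rfl⟩⟩
  have hu : orderOf u = 2 := orderOf_eq_two_of_perm u (by decide) (by decide)
  have hv : orderOf v = 2 := orderOf_eq_two_of_perm v (by decide) (by decide)
  have huv : orderOf (u * v) = 2 * 2 := orderOf_eq_four_of_perm (u * v) (by decide) (by decide)
  have hidx := index_closure hu hv
  rw [alt_card_seven, huv] at hidx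
  have hodd : Odd (Subgroup.closure ({u, v} : Set (alternatingGroup (Fin 7)))).index := by
    have : (Subgroup.closure ({u, v} : Set (alternatingGroup (Fin 7)))).index = 315 := by omega
    rw [this]; decide
  have hk1 : (u * v) ^ 2 ≠ 1 := fun h => absurd (congrArg Subtype.val h) (by decide)
  exact no_noncentral_involution (by omega) π hsurj hker hZ hns u v 2 hu hv huv hk1
    hodd x hx hx1


/-- The statement for a fixed `n ≤ 7`. -/
theorem unique_involution (n : ℕ) (H : Type*) [Group H] [Finite H] (hn : n ≤ 7)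
    (hc : Cfsg.IsNonsplitDoubleCover H (alternatingGroup (Fin n))) (x y : H)
    (hx : orderOf x = 2) (hy : orderOf y = 2) : x = y := by
  classical
  obtain ⟨hZ, ⟨e⟩, hns⟩ := hc
  let π := coverHom e
  have hsurj := coverHom_surjective e
  have hker := coverHom_ker e
  -- no involution outside the centre
  have key : ∀ w : H, orderOf w = 2 → w ∈ Subgroup.center H := by
    intro w hw
    by_contra hwc
    have hw2 : w ^ 2 = 1 := by rw [← hw]; exact pow_orderOf_eq_one w
    have hw1 : π w ≠ 1 := by
      intro h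
      exact hwc (hker ▸ (MonoidHom.mem_ker.mpr h))
    -- the degree is at least four
    have hpw2 : (π w : Perm (Fin n)) ^ 2 = 1 := by
      have h := congrArg (fun g : alternatingGroup (Fin n) => (g : Perm (Fin n))) (by
        rw [← map_pow, hw2, map_one] : (π w) ^ 2 = 1)
      simpa using h
    have hpw1 : (π w : Perm (Fin n)) ≠ 1 := fun h => hw1 (Subtype.ext h)
    have hsw : sign (π w : Perm (Fin n)) = 1 := mem_alternatingGroup.mp (π w).2
    have hct := cycleType_of_involution hn hsw hpw2 hpw1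
    have hsum := sum_cycleType_le (π w : Perm (Fin n))
    rw [hct, Fintype.card_fin] at hsum
    have h4 : 4 ≤ n := by simpa using hsum
    have hcases : n = 4 ∨ n = 5 ∨ n = 6 ∨ n = 7 := by omega
    rcases hcases with rfl | rfl | rfl | rfl
    · exact part_four π hsurj hker hZ hns w hw2 hw1
    · exact part_five π hsurj hker hZ hns w hw2 hw1
    · exact part_six π hsurj hker hZ hns w hw2 hw1
    · exact part_seven π hsurj hker hZ hns w hw2 hw1
  have hxc := key x hx
  have hyc := key y hy
  -- two elements of a group of order 2 differing from 1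
  have hx1 : (⟨x, hxc⟩ : Subgroup.center H) ≠ 1 := by
    intro h
    have := congrArg Subtype.val h
    simp only [OneMemClass.coe_one] at this
    rw [this] at hx
    simp at hx
  have hy1 : (⟨y, hyc⟩ : Subgroup.center H) ≠ 1 := by
    intro h
    have := congrArg Subtype.val h
    simp only [OneMemClass.coe_one] at this
    rw [this] at hy
    simp at hy
  by_contra hne
  have hfin : Fintype (Subgroup.center H) := Fintype.ofFinite _
  have h3 : 3 ≤ Nat.card (Subgroup.center H) := by
    rw [Nat.card_eq_fintype_card]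
    have : ({1, ⟨x, hxc⟩, ⟨y, hyc⟩} : Finset (Subgroup.center H)).card = 3 := by
      rw [Finset.card_insert_of_notMem, Finset.card_insert_of_notMem, Finset.card_singleton]
      · simpa using hne
      · simp only [Finset.mem_insert, Finset.mem_singleton, not_or]
        exact ⟨hx1.symm, hy1.symm⟩
    rw [← this]
    exact Finset.card_le_univ _
  omega

end Cfsg.Agent.Lib.DoubleCover.AltSmall
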